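import Cfsg.Agent.S1230
import Cfsg.Agent.ClassicalMax.SimpleCA
import Cfsg.Agent.SmallPSL.Projective
import Mathlib.FieldTheory.Finite.GaloisField
import Mathlib.LinearAlgebra.Matrix.ProjectiveSpecialLinearGroup

/-!
Groups with abelian centralisers and no abelian normal subgroup.
-/

set_option autoImplicit false

namespace Cfsg.Agent.Centre3

theorem exists_galois_iso {G : Type*} [Group G] {F : Type} [Field F] [Fintype F] {f : ℕ}
    (e : G ≃* Matrix.ProjectiveSpecialLinearGroup (Fin 2) F) (hF : Fintype.card F = 2 ^ f) (hf : 0 < f)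
    [Fact (Nat.Prime 2)] :
    Nonempty (G ≃* Matrix.ProjectiveSpecialLinearGroup (Fin 2) (GaloisField 2 f)) := by
  haveI : CharP F 2 := by
    have := CharP.ringChar_of_prime_eq_zero (R := F) Nat.prime_two (by
      have h0 : ((2 : ℕ) : F) ^ f = 0 := by
        rw [← Nat.cast_pow, ← hF, FiniteField.cast_card_eq_zero]
      exact pow_eq_zero_iff (by omega) |>.1 h0)
    exact this ▸ ringChar.charP F
  letI : Algebra (ZMod 2) F := ZMod.algebra F 2
  have φ : F ≃+* GaloisField 2 f :=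
    ((GaloisField.algEquivGaloisField 2 f (by rw [Nat.card_eq_fintype_card, hF])).toRingEquiv)
  obtain ⟨ψ⟩ := SmallPSL.psl_congr φ
  exact ⟨e.trans ψ⟩

theorem psl_of_ct {G : Type*} [Group G] [Finite G]
    (hF : ∀ N : Subgroup G, N.Normal → (∀ u ∈ N, ∀ v ∈ N, u * v = v * u) → N = ⊥)
    (hCA : ∀ x : G, x ≠ 1 → ∀ a ∈ Subgroup.centralizer ({x} : Set G),
      ∀ b ∈ Subgroup.centralizer ({x} : Set G), a * b = b * a)
    (hNne : ∀ x : G, x ≠ 1 → Subgroup.normalizer ((Subgroup.centralizer ({x} : Set G) : Subgroup G) : Set G)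
      ≠ Subgroup.centralizer ({x} : Set G))
    (heven : Even (Nat.card G)) :
    ∃ a : ℕ, 0 < a ∧ Nonempty (G ≃* Matrix.ProjectiveSpecialLinearGroup (Fin 2) (GaloisField 2 a)) := by
  letI : Fintype G := Fintype.ofFinite G
  obtain ⟨t, ht⟩ := Invol.exists_orderOf_two heven
  obtain ⟨P⟩ := (inferInstance : Nonempty (Sylow 2 G))
  have hPne : (P : Subgroup G) ≠ ⊥ := fun h => by
    have := P.not_dvd_index
    rw [h, Subgroup.index_bot] at this
    exact this heven.two_dvd
  have hPn : ¬ (P : Subgroup G).Normal := fun h => by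
    haveI := h
    haveI : Nontrivial (P : Subgroup G) := (Subgroup.nontrivial_iff_ne_bot _).2 hPne
    haveI := P.isPGroup'.center_nontrivial
    have h1 := hF ((Subgroup.center (P : Subgroup G)).map (P : Subgroup G).subtype) inferInstance (by
      rintro _ ⟨u, hu, rfl⟩ _ ⟨w, hw, rfl⟩
      exact congrArg Subtype.val (Subgroup.mem_center_iff.1 hw u))
    rw [Subgroup.map_eq_bot_iff_of_injective _ Subtype.val_injective] at h1
    exact (Subgroup.nontrivial_iff_ne_bot _).1 inferInstance h1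
  -- a central involution of the Sylow subgroup
  haveI : Nontrivial (P : Subgroup G) := (Subgroup.nontrivial_iff_ne_bot _).2 hPne
  obtain ⟨z, hz⟩ : ∃ z : Subgroup.center (P : Subgroup G), orderOf z = 2 := by
    haveI := P.isPGroup'.center_nontrivial
    refine exists_prime_orderOf_dvd_card' 2 ?_
    obtain ⟨k, hk⟩ := (P.isPGroup'.to_subgroup (Subgroup.center (P : Subgroup G))).exists_card_eq
    rw [hk]
    refine dvd_pow_self 2 fun h0 => ?_
    rw [h0, pow_zero] at hk
    exact (Finite.one_lt_card (α := Subgroup.center (P : Subgroup G))).ne' hk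
  set w : G := ((z : (P : Subgroup G)) : G) with hw
  have hw2 : orderOf w = 2 := by rw [hw, Subgroup.orderOf_coe, Subgroup.orderOf_coe, hz]
  have hPA : (P : Subgroup G) ≤ ClassicalMax.SimpleCA.cA w := fun x hx =>
    ClassicalMax.SimpleCA.mem_cent.2 (congrArg Subtype.val (Subgroup.mem_center_iff.1 z.2 ⟨x, hx⟩))
  have hAns : ¬ (ClassicalMax.SimpleCA.cA w).Normal := fun h =>
    hPne (le_bot_iff.1 (hF _ h (fun u hu v hv => ClassicalMax.SimpleCA.comm_A hCA hw2 hu hv) ▸ hPA))
  have hm : 2 ≤ ClassicalMax.SimpleCA.mA hCA hw2 := by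
    by_contra hcon
    have hNA : ClassicalMax.SimpleCA.cN w ≤ ClassicalMax.SimpleCA.cA w := by
      intro h hh
      have h1 := ClassicalMax.SimpleCA.card_N hCA hw2
      have h0 : 0 < ClassicalMax.SimpleCA.mA hCA hw2 := by
        by_contra h0
        rw [show ClassicalMax.SimpleCA.mA hCA hw2 = 0 by omega, mul_zero] at h1
        exact Nat.card_pos.ne' h1
      rw [show ClassicalMax.SimpleCA.mA hCA hw2 = 1 by omega, mul_one] at h1
      exact (Subgroup.eq_of_le_of_card_ge (ClassicalMax.SimpleCA.A_le_N hCA hw2) h1.le).symm ▸ hh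
    exact hNne w (TwoFusion.involution_ne_one hw2) (le_antisymm hNA (ClassicalMax.SimpleCA.A_le_N hCA hw2))
  have helem : ∀ a ∈ ClassicalMax.SimpleCA.cA w, a * a = 1 := fun a ha =>
    ClassicalMax.SimpleCA.sq_eq_one hCA hw2 hAns hm ha
  have hC : ∀ u : G, orderOf u = 2 → IsMulCommutative (Subgroup.centralizer ({u} : Set G)) ∧
      ∀ c ∈ Subgroup.centralizer ({u} : Set G), c ^ 2 = 1 := by
    intro u hu
    refine ⟨⟨⟨fun a b => Subtype.ext (hCA u (TwoFusion.involution_ne_one hu) a a.2 b b.2)⟩⟩,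
      fun c hc => ?_⟩
    obtain ⟨g, hg⟩ := isConj_iff.1 (ClassicalMax.SimpleCA.isConj_invol hCA hw2 hAns hu)
    have h1 : g⁻¹ * c * g ∈ ClassicalMax.SimpleCA.cA w := by
      rw [ClassicalMax.SimpleCA.mem_cent] at hc ⊢
      rw [← hg, commute_iff_eq] at hc
      rw [commute_iff_eq]
      calc g⁻¹ * c * g * w = g⁻¹ * (c * (g * w * g⁻¹)) * g := by group
        _ = g⁻¹ * ((g * w * g⁻¹) * c) * g := by rw [hc]
        _ = w * (g⁻¹ * c * g) := by group
    calc c ^ 2 = c * c := pow_two c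
      _ = g * ((g⁻¹ * c * g) * (g⁻¹ * c * g)) * g⁻¹ := by group
      _ = 1 := by rw [helem _ h1]; group
  have hnc : ¬ IsCyclic (P : Subgroup G) := by
    intro hcyc
    obtain ⟨g, hg⟩ := IsCyclic.exists_ofOrder_eq_natCard (α := (P : Subgroup G))
    have h2 : Nat.card (P : Subgroup G) ≤ 2 := by
      rw [← hg]
      refine Nat.le_of_dvd (by norm_num) (orderOf_dvd_of_pow_eq_one ?_)
      rw [pow_two]
      exact Subtype.ext (helem g (hPA g.2))
    have h3 : Nat.card (ClassicalMax.SimpleCA.cA w) ∣ Nat.card (P : Subgroup G) := by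
      have hA2 : IsPGroup 2 (ClassicalMax.SimpleCA.cA w) := fun x => ⟨1, by
        rw [pow_one, pow_two]; exact Subtype.ext (helem x x.2)⟩
      obtain ⟨k, hk⟩ := IsPGroup.iff_card.1 hA2
      obtain ⟨Q, hQ⟩ := hA2.exists_le_sylow
      rw [P.card_eq_multiplicity, ← Q.card_eq_multiplicity]
      exact Subgroup.card_dvd_of_le hQ
    have h4 : ClassicalMax.SimpleCA.mA hCA hw2 ∣ Nat.card (ClassicalMax.SimpleCA.cA w) - 1 :=
      ClassicalMax.SimpleCA.mA_dvd hCA hw2
    have h5 : Nat.card (ClassicalMax.SimpleCA.cA w) ≤ 2 :=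
      (Nat.le_of_dvd Nat.card_pos h3).trans h2
    have h6 : 1 < Nat.card (ClassicalMax.SimpleCA.cA w) :=
      lt_of_lt_of_le (Finite.one_lt_card (α := (P : Subgroup G))) (Subgroup.card_le_of_le hPA)
    have := Nat.le_of_dvd (by omega) h4
    omega
  obtain ⟨F, iF, iFF, hFc, ⟨e⟩⟩ := S1230.result P hnc hPn hC
  obtain ⟨f, hf⟩ := IsPGroup.iff_card.1 P.isPGroup'
  haveI : Fact (Nat.Prime 2) := ⟨Nat.prime_two⟩
  have hf1 : 0 < f := by
    have h7 := Finite.one_lt_card (α := (P : Subgroup G))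
    rcases Nat.eq_zero_or_pos f with h0 | h0
    · rw [hf, h0, pow_zero] at h7; omega
    · exact h0
  exact ⟨f, hf1, exists_galois_iso e (hFc.trans hf) hf1⟩

end Cfsg.Agent.Centre3
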